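import Cfsg.Agent.Lib.CharSmallPerm.Basic
import Mathlib.GroupTheory.Perm.Sign
import Mathlib.GroupTheory.Perm.Fin

/-!
# Permutations with few fixed points and few swapped pairs
-/

set_option autoImplicit false

namespace Cfsg.Agent.Lib.CharSmallPerm

/-- The number of swapped ordered pairs counted on the first entry. -/
theorem sw_eq_card {m : ℕ} (g : Equiv.Perm (Fin m)) :
    sw (Fin m) g = (Finset.univ.filter fun a : Fin m => g a ≠ a ∧ g (g a) = a).card := by
  rw [sw]
  refine Finset.card_bij (fun v _ => v.1) ?_ ?_ ?_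
  · intro v hv
    obtain ⟨h1, h2, h3⟩ := mem_swapped.1 hv
    simp only [Equiv.Perm.smul_def] at h2 h3
    exact Finset.mem_filter.2 ⟨Finset.mem_univ _, by rw [h2]; exact Ne.symm h1, by rw [h2, h3]⟩
  · intro v hv w hw h
    obtain ⟨-, h2, -⟩ := mem_swapped.1 hv
    obtain ⟨-, h2', -⟩ := mem_swapped.1 hw
    exact Prod.ext h (by rw [← h2, ← h2', h])
  · intro a ha
    obtain ⟨h1, h2⟩ := (Finset.mem_filter.1 ha).2
    exact ⟨(a, g a), mem_swapped.2 ⟨Ne.symm h1, rfl, h2⟩, rfl⟩

/-- There is a permutation of exponent `m` on `n` points with `f` fixed points, `U` swapped pairs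
and sign `s`. -/
def Good (m n f U : ℕ) (s : ℤˣ) : Prop :=
  ∃ g : Equiv.Perm (Fin n), g ^ m = 1 ∧ fp (Fin n) g = f ∧ sw (Fin n) g = U ∧ Equiv.Perm.sign g = s

theorem Good.add {m a b f₁ f₂ U₁ U₂ : ℕ} {s₁ s₂ : ℤˣ} (h₁ : Good m a f₁ U₁ s₁)
    (h₂ : Good m b f₂ U₂ s₂) : Good m (a + b) (f₁ + f₂) (U₁ + U₂) (s₁ * s₂) := by
  obtain ⟨g₁, p₁, rfl, rfl, rfl⟩ := h₁
  obtain ⟨g₂, p₂, rfl, rfl, rfl⟩ := h₂
  set φ : Equiv.Perm (Fin a) × Equiv.Perm (Fin b) →* Equiv.Perm (Fin (a + b)) :=
    finSumFinEquiv.permCongrHom.toMonoidHom.comp (Equiv.Perm.sumCongrHom (Fin a) (Fin b)) with hφ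
  have hl : ∀ i, φ (g₁, g₂) (Fin.castAdd b i) = Fin.castAdd b (g₁ i) := fun i => by
    simp [hφ, Equiv.permCongrHom, Equiv.permCongr_apply]
  have hr : ∀ i, φ (g₁, g₂) (Fin.natAdd a i) = Fin.natAdd a (g₂ i) := fun i => by
    simp [hφ, Equiv.permCongrHom, Equiv.permCongr_apply]
  refine ⟨φ (g₁, g₂), ?_, ?_, ?_, ?_⟩
  · rw [← map_pow, Prod.pow_mk, p₁, p₂, Prod.mk_one_one, map_one]
  · simp only [fp, Equiv.Perm.smul_def, Finset.card_filter, Fin.sum_univ_add, hl, hr, Fin.castAdd_inj,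
      Fin.natAdd_inj]
  · simp only [sw_eq_card, Finset.card_filter, Fin.sum_univ_add, hl, hr, Fin.castAdd_inj,
      Fin.natAdd_inj, ne_eq]
  · simp [hφ, Equiv.permCongrHom]

theorem good_zero (m : ℕ) : Good m 0 0 0 1 := ⟨1, one_pow m, by decide, by decide, by simp⟩

theorem good_point (m : ℕ) : Good m 1 1 0 1 := ⟨1, one_pow m, by decide, by decide, by simp⟩

theorem good_two : Good 8 2 0 2 (-1) := ⟨finRotate 2, by decide, by decide, by decide, by decide⟩

theorem good_four : Good 8 4 0 0 (-1) :=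
  ⟨finRotate 4, by decide, by decide, by decide, by rw [sign_finRotate]; rfl⟩

theorem good_eight : Good 8 8 0 0 (-1) :=
  ⟨finRotate 8, by decide +kernel, by decide +kernel, by decide +kernel, by rw [sign_finRotate]; rfl⟩

theorem good_three : Good 3 3 0 0 1 :=
  ⟨finRotate 3, by decide, by decide, by decide, by rw [sign_finRotate]; rfl⟩

theorem good_fours (k : ℕ) : Good 8 (4 * k) 0 0 ((-1) ^ k) := by
  induction k with
  | zero => exact good_zero 8
  | succ k ih =>
    have h := ih.add good_four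
    rwa [show 4 * (k + 1) = 4 * k + 4 by ring, pow_succ]

theorem good_threes (k : ℕ) : Good 3 (3 * k) 0 0 1 := by
  induction k with
  | zero => exact good_zero 3
  | succ k ih =>
    have h := ih.add good_three
    rwa [show 3 * (k + 1) = 3 * k + 3 by ring]

theorem good_fours_sign (k : ℕ) (s : ℤˣ) (h : 2 ≤ k ∨ s = (-1) ^ k) : Good 8 (4 * k) 0 0 s := by
  by_cases hs : s = (-1) ^ k
  · exact hs ▸ good_fours k
  obtain ⟨j, rfl⟩ := Nat.exists_eq_add_of_le (h.resolve_right hs)
  have hj := good_eight.add (good_fours j)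
  have e : s = -1 * (-1) ^ j := by
    rw [pow_add, neg_one_sq, one_mul] at hs
    rcases Int.units_eq_one_or s with rfl | rfl <;>
      rcases neg_one_pow_eq_or ℤˣ j with h' | h' <;> simp_all
  rw [e]
  rwa [show 4 * (2 + j) = 8 + 4 * j by ring]

/-- An even element of exponent eight with no more than two fixed points. -/
theorem good_even_eight {n : ℕ} (hn : 7 ≤ n) :
    Good 8 n 0 0 1 ∨ (∃ U, Good 8 n 1 U 1) ∨ Good 8 n 0 2 1 := by
  obtain ⟨k, r, hr, rfl⟩ : ∃ k r, r < 4 ∧ n = 4 * k + r :=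
    ⟨n / 4, n % 4, Nat.mod_lt _ (by norm_num), (Nat.div_add_mod n 4).symm⟩
  interval_cases r
  · exact Or.inl (good_fours_sign k 1 (Or.inl (by omega)))
  · exact Or.inr (Or.inl ⟨0, by simpa using (good_fours_sign k 1 (Or.inl (by omega))).add (good_point 8)⟩)
  · exact Or.inr (Or.inr (by simpa using (good_fours_sign k (-1) (Or.inl (by omega))).add good_two))
  · refine Or.inr (Or.inl ⟨2, ?_⟩)
    have h : Good 8 (4 * k) 0 0 (-1) := good_fours_sign k (-1) (by
      rcases Nat.lt_or_ge 1 k with h | h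
      · exact Or.inl h
      · exact Or.inr (by rw [show k = 1 by omega, pow_one]))
    simpa [add_assoc] using (h.add good_two).add (good_point 8)

/-- An element of order dividing three with no more than two fixed points. -/
theorem good_even_three (n : ℕ) :
    Good 3 n 0 0 1 ∨ (∃ U, Good 3 n 1 U 1) ∨ Good 3 n 2 0 1 := by
  obtain ⟨k, r, hr, rfl⟩ : ∃ k r, r < 3 ∧ n = 3 * k + r :=
    ⟨n / 3, n % 3, Nat.mod_lt _ (by norm_num), (Nat.div_add_mod n 3).symm⟩
  interval_cases r
  · exact Or.inl (good_threes k)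
  · exact Or.inr (Or.inl ⟨0, by simpa using (good_threes k).add (good_point 3)⟩)
  · exact Or.inr (Or.inr (by simpa using ((good_threes k).add (good_point 3)).add (good_point 3)))

universe u v

variable {G : Type u} [Group G] [Fintype G] {α : Type v} [Fintype α] [DecidableEq α] [MulAction G α]

omit [Fintype G] in
theorem fp_subgroup (H : Subgroup G) (x : H) : fp α x = fp α (x : G) := rfl

omit [Fintype G] in
theorem sw_subgroup (H : Subgroup G) (x : H) : sw α x = sw α (x : G) := rfl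

end Cfsg.Agent.Lib.CharSmallPerm
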